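import Cfsg.Agent.Lib.Lead.Mil.STEM
import Cfsg.Agent.Lib.Helper9.SchurTriv
import Cfsg.Agent.Lib.Helper85.SL2CoverE
import Cfsg.Agent.S1077
import Cfsg.Agent.S1078
import Cfsg.Agent.S3958

set_option autoImplicit false
open scoped commutatorElement

namespace Cfsg.Agent.Lib.Lead.Mil

open Cfsg Cfsg.Lie Cfsg.Agent.Lib.Helper23 Cfsg.Agent.Lib.Helper23.StP Cfsg.Agent.Lib.Helper22

universe u

variable {D : ChevalleyDatum} {K : Type u} [Field K]

theorem st_mult [Finite K] (hD : D ∈ [chevE6, chevE7, chevE8]) (T : MilTab D)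
    (hAx : Ax (CmD D) (SmD D K)) [Finite (D.SteinbergGroup K)] :
    HasCyclicSchurMultiplier (D.SteinbergGroup K) 1 := by
  apply Cfsg.Agent.Lib.Helper9.hasTrivialMultiplier
  intro Γ _ _ σ hσ
  obtain ⟨τ, hτ⟩ := exists_section hD T hAx σ hσ.1 hσ.2.1
  exact stem_trivial_of_section σ hσ τ hτ

/-- perfectness of the Steinberg group -/
theorem st_perfect (hD : D ∈ [chevE6, chevE7, chevE8]) (T : MilTab D)
    (hAx : Ax (CmD D) (SmD D K)) : commutator (D.SteinbergGroup K) = ⊤ := by
  have hD' := mem_all hD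
  have hA := addFact_of_mem K hD'
  let S := sysGroup hD' hA
  have hS := sys_of_stSys T S
  rw [eq_top_iff, ← S.gen, Subgroup.closure_le]
  rintro _ ⟨r, t, hr, rfl⟩
  obtain ⟨a, b, c, h, -, -⟩ := hAx.split (hAx.cm_refl ⟨r, hr⟩)
  have := hS.sm h (c * t) 1
  have e : c * (c * t) * 1 = t := by linear_combination t * hAx.sm_sq h
  rw [e] at this
  show S.X r t ∈ commutator _
  have e2 : S.X r t = ⁅S.X a (c * t), S.X b 1⁆ := this.symm
  rw [e2, commutator_def]
  exact Subgroup.commutator_mem_commutator (Subgroup.mem_top _) (Subgroup.mem_top _)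

theorem e8_mult [Fintype K] (T : MilTab chevE8) (hAx : Ax (CmD chevE8) (SmD chevE8 K)) :
    HasCyclicSchurMultiplier ↥(chevE8.group K) 1 := by
  obtain ⟨θ, h1, h2, -⟩ := Cfsg.Agent.S1077.result (K := K) chevE8 (by simp)
  rw [Cfsg.Agent.S1078.result (K := K) chevE8 (by simp)] at h2
  have hinj : Function.Injective θ := (MonoidHom.ker_eq_bot_iff θ).1 h2
  let e : chevE8.SteinbergGroup K ≃* ↥(chevE8.group K) := MulEquiv.ofBijective θ ⟨hinj, h1⟩
  have : Finite (chevE8.SteinbergGroup K) := Finite.of_injective θ hinj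
  exact Cfsg.Agent.Lib.Helper85.SL2Cover.hsm_congr e (st_mult (by simp) T hAx)

/-- the general form: the multiplier of the adjoint group is the centre of the Steinberg group -/
theorem adj_mult [Fintype K] (hD : D ∈ [chevE6, chevE7, chevE8]) (T : MilTab D)
    (hAx : Ax (CmD D) (SmD D K)) (n : ℕ) (hn : n.Prime ∨ n = 1)
    (hcard : Nat.card (Subgroup.center (D.SteinbergGroup K)) = n) :
    HasCyclicSchurMultiplier ↥(D.group K) n := by
  obtain ⟨θ, h1, h2, -⟩ := Cfsg.Agent.S1077.result (K := K) D (mem_all hD)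
  have hn0 : n ≠ 0 := by
    rcases hn with h | h
    · exact h.ne_zero
    · omega
  have : Finite (Subgroup.center (D.SteinbergGroup K)) := Nat.finite_of_card_ne_zero (by rw [hcard]; exact hn0)
  have : Finite θ.ker := by rw [h2]; infer_instance
  have : Finite (D.SteinbergGroup K) := by
    apply Nat.finite_of_card_ne_zero
    rw [← Subgroup.card_mul_index θ.ker, Subgroup.index_ker]
    exact mul_ne_zero Finite.card_pos.ne' Finite.card_pos.ne'
  have hσ : IsStemExtension θ := by
    refine ⟨h1, h2.le, ?_⟩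
    rw [st_perfect hD T hAx]; exact le_top
  have hcyc : IsCyclic (Subgroup.center (D.SteinbergGroup K)) := by
    rcases hn with h | h
    · have := Fact.mk h
      exact isCyclic_of_prime_card hcard
    · have : Subsingleton (Subgroup.center (D.SteinbergGroup K)) :=
        (Nat.card_eq_one_iff_unique.1 (by rw [hcard, h])).1
      infer_instance
  have hcard2 : Nat.card (Subgroup.center (D.SteinbergGroup K)) = Nat.card (Multiplicative (ZMod n)) := by
    rw [hcard, Nat.card_congr (Multiplicative.toAdd (α := ZMod n)), Nat.card_zmod]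
  have e1 : θ.ker ≃* Multiplicative (ZMod n) :=
    (MulEquiv.subgroupCongr h2).trans (mulEquivOfCyclicCardEq hcard2)
  refine ⟨⟨D.SteinbergGroup K, inferInstance, inferInstance, θ, hσ, ⟨e1⟩⟩, ?_⟩
  intro Δ _ _ τ hτ
  obtain ⟨π, hπ⟩ := Cfsg.Agent.S3958.result θ hσ (st_mult hD T hAx) Δ τ hτ
  exact ⟨π.comp e1.symm.toMonoidHom, hπ.comp e1.symm.surjective⟩

end Cfsg.Agent.Lib.Lead.Mil
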