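import Cfsg.Agent.Lib.Lead.Mil.Emb
import Cfsg.Agent.Lib.Lead.Mil.FIN
import Cfsg.Agent.Lib.Helper23.StCen
import Cfsg.Agent.Lib.Helper23.StLat

set_option autoImplicit false
open scoped commutatorElement

namespace Cfsg.Agent.Lib.Lead.Mil

open Cfsg Cfsg.Lie Cfsg.Agent.Lib.Helper23 Cfsg.Agent.Lib.Helper23.StP Cfsg.Agent.Lib.Helper22

variable {D : ChevalleyDatum} {K : Type*} [Field K] {ι : ℕ → ℕ}

theorem e8_mem : chevE8 ∈ [chevG2, chevB2, chevD4, chevF4, chevE6, chevE7, chevE8] := by simp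

theorem e8_rank : chevE8.rank = 8 := rfl

/-- the E8 root elements indexed by the subsystem form a MIL system for `D` -/
theorem emb_sys (T8 : MilTab chevE8) (Em : EmbTab D ι) {hA8 : AddFact chevE8 K} {Γ : Type*} [Group Γ]
    (S8 : StSys chevE8 K hA8 Γ) :
    Sys (CmD D) (SmD D K) (fun (r : Fin D.nroots) (t : K) => S8.X (ι r) t) := by
  have h8 := sys_of_stSys T8 S8
  refine ⟨fun r t u => S8.add _ t u, ?_, ?_⟩
  · intro r s h t u
    have : CmD chevE8 ⟨ι r, Em.lt r r.2⟩ ⟨ι s, Em.lt s s.2⟩ := by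
      unfold CmD at *
      show 0 ≤ ip chevE8 (ι r) (ι s)
      rw [Em.ip r r.2 s s.2]; exact h
    exact h8.cm this t u
  · intro r s k c h t u
    obtain ⟨h1, h2, c0, h3, h4, h5⟩ := h
    have : SmD chevE8 K ⟨ι r, Em.lt r r.2⟩ ⟨ι s, Em.lt s s.2⟩ ⟨ι k, Em.lt k k.2⟩ c := by
      refine ⟨?_, ?_, c0, h3, Em.ct s s.2 r r.2 k c0 h4, h5⟩
      · show ip chevE8 (ι r) (ι s) = -1
        rw [Em.ip r r.2 s s.2]; exact h1
      · intro i hi
        show vec chevE8 (ι k) i = vec chevE8 (ι r) i + vec chevE8 (ι s) i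
        rw [e8_rank] at hi
        rw [Em.vec k k.2 i hi, Em.vec r r.2 i hi, Em.vec s s.2 i hi]
        split_ifs with hh
        · exact h2 i hh
        · simp
    exact h8.sm this t u

theorem emb_hom [Finite K] (hD : D ∈ [chevE6, chevE7, chevE8]) (T : MilTab D) (T8 : MilTab chevE8)
    (Em : EmbTab D ι) (hA : AddFact D K) (hA8 : AddFact chevE8 K) :
    ∃ φ : D.SteinbergGroup K →* chevE8.SteinbergGroup K, ∀ r < D.nroots, ∀ t : K,
      φ ((sysGroup (mem_all hD) hA).X r t) = (sysGroup e8_mem hA8).X (ι r) t := by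
  obtain ⟨τ, hτ⟩ := exists_hom T _ (emb_sys T8 Em (sysGroup e8_mem hA8))
  obtain ⟨e, he⟩ := cover_equiv (K := K) (mem_all hD)
  refine ⟨τ.comp e.symm.toMonoidHom, fun r hr t => ?_⟩
  show τ (e.symm ((sysGroup (mem_all hD) hA).X r t)) = _
  rw [sysGroup_X, ← he, MulEquiv.symm_apply_apply]
  exact hτ ⟨r, hr⟩ t

theorem emb_hW (hD : D ∈ [chevE6, chevE7, chevE8]) (Em : EmbTab D ι) (hA : AddFact D K) (hA8 : AddFact chevE8 K)
    (φ : D.SteinbergGroup K →* chevE8.SteinbergGroup K)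
    (hφ : ∀ r < D.nroots, ∀ t : K, φ ((sysGroup (mem_all hD) hA).X r t) = (sysGroup e8_mem hA8).X (ι r) t)
    (c : ℕ → K) :
    φ ((sysGroup (mem_all hD) hA).hW D.rank c) =
      (sysGroup e8_mem hA8).hW 8 (fun i => if i < D.rank then c i else 1) := by
  have b := bundle_of_mem K (mem_all hD)
  set S := sysGroup (mem_all hD) hA
  set S8 := sysGroup e8_mem hA8
  have hB : ∀ i < D.rank, ∀ t, φ (S.hB (D.simple i) t) = S8.hB (chevE8.simple i) t := by
    intro i hi t
    have h1 := b.hR.simple_lt hi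
    have h2 := b.hR.neg_lt h1
    simp only [StSys.hB, StSys.nB, map_mul, hφ _ h1, hφ _ h2, Em.neg _ h1, Em.simple i hi]
  have key1 : ∀ n ≤ D.rank, φ (S.hW n c) = S8.hW n (fun i => if i < D.rank then c i else 1) := by
    intro n
    induction n with
    | zero => intro _; simp [StSys.hW_zero]
    | succ n ih =>
      intro hn
      rw [StSys.hW_succ, StSys.hW_succ, map_mul, ih (by omega), hB n (by omega), if_pos (by omega)]
  have key2 : ∀ m, S8.hW (D.rank + m) (fun i => if i < D.rank then c i else 1) =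
      S8.hW D.rank (fun i => if i < D.rank then c i else 1) := by
    intro m
    induction m with
    | zero => rfl
    | succ m ih =>
      rw [← add_assoc, StSys.hW_succ, ih, if_neg (by omega), S8.hB_one, mul_one]
  rw [key1 _ le_rfl, ← key2 (8 - D.rank)]
  congr 1
  have := Em.rank_le
  omega

end Cfsg.Agent.Lib.Lead.Mil
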